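import Mathlib

/-!
Eight commuting involutory endomorphisms of a three-dimensional space in odd characteristic are all the
diagonal sign matrices in a suitable basis; transfer of a central involution through a determinant-like character.
-/

set_option autoImplicit false

namespace CfsgLib.CentralMinusOne

open Function MulAction

variable {F : Type*} [Field F]

theorem span_signEigen (h2 : (2 : F) ≠ 0) {V ι : Type*} [AddCommGroup V] [Module F V]
    (L : ι → Module.End F V) (hc : ∀ i j, L i * L j = L j * L i) (hs : ∀ i, L i * L i = 1) (s : Finset ι) :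
    Submodule.span F {v : V | ∀ i ∈ s, L i v = v ∨ L i v = -v} = ⊤ := by
  classical
  induction s using Finset.induction with
  | empty => simp
  | @insert a s has ih =>
    rw [eq_top_iff, ← ih, Submodule.span_le]
    intro v hv
    have hca : ∀ i w, L i (L a w) = L a (L i w) := fun i w => by
      rw [← Module.End.mul_apply, hc, Module.End.mul_apply]
    have hsa : ∀ w, L a (L a w) = w := fun w => by
      rw [← Module.End.mul_apply, hs, Module.End.one_apply]
    have hp : v + L a v ∈ {w : V | ∀ i ∈ insert a s, L i w = w ∨ L i w = -w} := by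
      intro i hi
      rcases Finset.mem_insert.mp hi with rfl | hi
      · left; rw [map_add, hsa, add_comm]
      · rcases hv i hi with h | h
        · left; rw [map_add, hca, h]
        · right; rw [map_add, hca, h, map_neg, neg_add]
    have hm : v - L a v ∈ {w : V | ∀ i ∈ insert a s, L i w = w ∨ L i w = -w} := by
      intro i hi
      rcases Finset.mem_insert.mp hi with rfl | hi
      · right; rw [map_sub, hsa, neg_sub]
      · rcases hv i hi with h | h
        · left; rw [map_sub, hca, h]
        · right; rw [map_sub, hca, h, map_neg]; abel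
    have e : v = (2 : F)⁻¹ • ((v + L a v) + (v - L a v)) := by
      rw [show (v + L a v) + (v - L a v) = (2 : F) • v by rw [two_smul]; abel, smul_smul,
        inv_mul_cancel₀ h2, one_smul]
    rw [e]
    exact Submodule.smul_mem _ _ (Submodule.add_mem _ (Submodule.subset_span hp) (Submodule.subset_span hm))

/-- Eight commuting involutory endomorphisms in dimension three realize all sign patterns on some basis. -/
theorem exists_signBasis (h2 : (2 : F) ≠ 0) {V ι : Type*} [AddCommGroup V] [Module F V] [FiniteDimensional F V]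
    (hd : Module.finrank F V = 3) [Finite ι] (L : ι → Module.End F V) (hc : ∀ i j, L i * L j = L j * L i)
    (hs : ∀ i, L i * L i = 1) (hL : Injective L) (h8 : 8 ≤ Nat.card ι) :
    ∃ b : Module.Basis (Fin 3) F V, ∀ σ : Fin 3 → Bool, ∃ i, ∀ k, L i (b k) = if σ k then b k else -b k := by
  classical
  haveI := Fintype.ofFinite ι
  have hspan := span_signEigen h2 L hc hs Finset.univ
  obtain ⟨B, hBS, hBspan, hBli⟩ := exists_linearIndependent F {v : V | ∀ i ∈ (Finset.univ : Finset ι), L i v = v ∨ L i v = -v}
  rw [hspan] at hBspan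
  let b₀ := Module.Basis.mk hBli (by rw [Subtype.range_coe, hBspan])
  haveI := Module.Finite.finite_basis b₀
  haveI := Fintype.ofFinite B
  have hcard : Fintype.card B = 3 := by rw [← hd, Module.finrank_eq_card_basis b₀]
  let b := b₀.reindex (Fintype.equivFinOfCardEq hcard)
  refine ⟨b, fun σ => ?_⟩
  have hb : ∀ i k, L i (b k) = b k ∨ L i (b k) = -b k := fun i k => by
    have : b k ∈ B := by simp [b, b₀]
    exact hBS this i (Finset.mem_univ _)
  let τ : ι → (Fin 3 → Bool) := fun i k => decide (L i (b k) = b k)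
  have hτ : Injective τ := fun i j h => hL (b.ext fun k => by
    have hk := congrFun h k
    simp only [τ, decide_eq_decide] at hk
    by_cases h1 : L i (b k) = b k
    · rw [h1, hk.mp h1]
    · rw [(hb i k).resolve_left h1, (hb j k).resolve_left (fun h2 => h1 (hk.mpr h2))])
  have hbij : Bijective τ := by
    rw [Fintype.bijective_iff_injective_and_card]
    refine ⟨hτ, le_antisymm (Fintype.card_le_of_injective τ hτ) ?_⟩
    rw [← Nat.card_eq_fintype_card (α := ι)]
    simpa using h8
  obtain ⟨i, hi⟩ := hbij.2 σ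
  refine ⟨i, fun k => ?_⟩
  have hk : decide (L i (b k) = b k) = σ k := congrFun hi k
  cases hσ : σ k with
  | true => rw [hσ] at hk; simpa using hk
  | false => rw [hσ] at hk; simpa using (hb i k).resolve_left (by simpa using hk)

variable {G : Type*} [Group G] [Finite G]

/-- Transfer of an involution centralised by a Sylow 2-subgroup: if all its conjugates in the Sylow subgroup that are
central there have value `-1` under a character, then the transfer of the character takes the value `-1` on it. -/
theorem transfer_eq_neg_one (h2 : (-1 : F) ≠ 1) (T : Sylow 2 G) (f : ↥(T : Subgroup G) →* Fˣ)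
    (x : ↥(T : Subgroup G)) (hx : (x : G) ^ 2 = 1) (hxc : ∀ d ∈ (T : Subgroup G), d * x = x * d)
    (hval : ∀ g : G, g ∈ Subgroup.normalizer ((T : Subgroup G) : Set G) →
      ∀ h : g⁻¹ * x * g ∈ (T : Subgroup G), f ⟨_, h⟩ = -1) :
    MonoidHom.transfer f (x : G) ≠ 1 := by
  classical
  intro htr
  have h2u : (-1 : Fˣ) ≠ 1 := fun h => h2 (by simpa using congrArg Units.val h)
  let bad : Set (G ⧸ (T : Subgroup G)) := {q | ∃ g : G, (g : G ⧸ (T : Subgroup G)) = q ∧ ∃ h : g⁻¹ * x * g ∈ (T : Subgroup G), f ⟨_, h⟩ = -1}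
  have memBad : ∀ g : G, (g : G ⧸ (T : Subgroup G)) ∈ bad ↔ ∃ h : g⁻¹ * x * g ∈ (T : Subgroup G), f ⟨_, h⟩ = -1 := by
    intro g
    refine ⟨?_, fun h => ⟨g, rfl, h⟩⟩
    rintro ⟨a, ha, h1, h3⟩
    have hh : a⁻¹ * g ∈ (T : Subgroup G) := QuotientGroup.eq.mp ha
    have e : g⁻¹ * x * g = (a⁻¹ * g)⁻¹ * (a⁻¹ * x * a) * (a⁻¹ * g) := by group
    have hm : g⁻¹ * x * g ∈ (T : Subgroup G) := e ▸ (T : Subgroup G).mul_mem ((T : Subgroup G).mul_mem ((T : Subgroup G).inv_mem hh) h1) hh
    refine ⟨hm, ?_⟩
    have : (⟨_, hm⟩ : ↥(T : Subgroup G)) = (⟨_, hh⟩ : ↥(T : Subgroup G))⁻¹ * ⟨_, h1⟩ * ⟨_, hh⟩ := Subtype.ext e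
    rw [this, map_mul, map_mul, map_inv, mul_right_comm, inv_mul_cancel, one_mul, h3]
  -- parity of the bad cosets
  haveI : Fintype (Quotient (orbitRel (Subgroup.zpowers (x : G)) (G ⧸ (T : Subgroup G)))) := Fintype.ofFinite _
  haveI : Fintype (G ⧸ (T : Subgroup G)) := Fintype.ofFinite _
  have ht := htr.symm.trans (MonoidHom.transfer_eq_prod_quotient_orbitRel_zpowers_quot f (x : G))
  let P : Quotient (orbitRel (Subgroup.zpowers (x : G)) (G ⧸ (T : Subgroup G))) → Prop := fun o => o.out ∈ bad
  have hfix : ∀ q ∈ bad, (x : G) • q = q := by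
    rintro q ⟨g, rfl, h1, -⟩
    rw [MulAction.Quotient.smul_coe, smul_eq_mul, QuotientGroup.eq, mul_inv_rev]
    rw [← inv_mem_iff]; simpa [mul_assoc] using h1
  have hP : ∀ o, (P o → minimalPeriod ((x : G) • ·) o.out = 1) := fun o ho => by
    rw [minimalPeriod_eq_one_iff_isFixedPt]; exact hfix _ ho
  have hfac : ∀ o, f ⟨o.out.out⁻¹ * (x : G) ^ minimalPeriod ((x : G) • ·) o.out * o.out.out,
      QuotientGroup.out_conj_pow_minimalPeriod_mem (T : Subgroup G) (x : G) o.out⟩ = if P o then (-1 : Fˣ) else 1 := by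
    intro o
    have hb : P o ↔ ∃ h : o.out.out⁻¹ * (x : G) * o.out.out ∈ (T : Subgroup G), f ⟨_, h⟩ = -1 := by
      simp only [P]
      conv_lhs => rw [← QuotientGroup.out_eq' o.out]
      exact memBad _
    have hsq : ∀ g : G, ∀ h : g⁻¹ * x * g ∈ (T : Subgroup G), f ⟨_, h⟩ = 1 ∨ f ⟨_, h⟩ = -1 := fun g h => by
      have : (⟨_, h⟩ : ↥(T : Subgroup G)) * ⟨_, h⟩ = 1 := Subtype.ext (by
        show g⁻¹ * x * g * (g⁻¹ * x * g) = 1
        calc g⁻¹ * x * g * (g⁻¹ * x * g) = g⁻¹ * (x : G) ^ 2 * g := by simp [pow_two, mul_assoc]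
          _ = 1 := by rw [hx]; group)
      have h' := congrArg f this
      rw [map_mul, map_one] at h'
      have h'' : ((f ⟨_, h⟩ : Fˣ) : F) * (f ⟨_, h⟩ : Fˣ) = 1 := by
        rw [← Units.val_mul, h', Units.val_one]
      rcases mul_self_eq_one_iff.mp h'' with h1 | h1
      · left; exact Units.ext h1
      · right; exact Units.ext (by simpa using h1)
    by_cases h : P o
    · rw [if_pos h]
      obtain ⟨hm, hv⟩ := hb.mp h
      rw [← hv]
      exact congrArg f (Subtype.ext (by simp [hP o h]))
    · rw [if_neg h]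
      by_cases h1 : minimalPeriod ((x : G) • ·) o.out = 1
      · have hm := QuotientGroup.out_conj_pow_minimalPeriod_mem (T : Subgroup G) (x : G) o.out
        simp only [h1, pow_one] at hm ⊢
        exact (hsq _ hm).resolve_right fun hh => h (hb.mpr ⟨hm, hh⟩)
      · have h3 : minimalPeriod ((x : G) • ·) o.out ∣ 2 := by
          rw [← isPeriodicPt_iff_minimalPeriod_dvd]
          change (fun q : G ⧸ (T : Subgroup G) => (x : G) • q)^[2] o.out = o.out
          simp only [iterate_succ, iterate_zero, comp_apply, id_eq]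
          rw [smul_smul, ← sq, hx, one_smul]
        rcases (Nat.dvd_prime Nat.prime_two).mp h3 with h4 | h4
        · exact absurd h4 h1
        · exact (congrArg f (Subtype.ext (by simp [h4, hx]))).trans f.map_one
  simp_rw [hfac] at ht
  rw [Finset.prod_ite, Finset.prod_const, Finset.prod_const_one, mul_one] at ht
  have hev : Even (Finset.univ.filter P).card := by
    rcases Nat.even_or_odd (Finset.univ.filter P).card with h | h
    · exact h
    · rw [h.neg_one_pow] at ht; exact absurd ht.symm h2u
  have hbadcard : Nat.card bad = (Finset.univ.filter P).card := by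
    rw [Nat.card_eq_fintype_card, ← Finset.card_univ]
    symm
    refine Finset.card_bij (fun o ho => ⟨o.out, (Finset.mem_filter.mp ho).2⟩) (fun o ho => Finset.mem_univ _)
      (fun a _ b _ hab => ?_) (fun q _ => ?_)
    · have : a.out = b.out := congrArg Subtype.val hab
      rw [← Quotient.out_eq a, ← Quotient.out_eq b, this]
    · have hout : (Quotient.mk (orbitRel (Subgroup.zpowers (x : G)) (G ⧸ (T : Subgroup G))) q.1).out = q.1 := by
        obtain ⟨⟨d, k, rfl⟩, hd⟩ := (orbitRel_apply.mp
          (Quotient.mk_out (s := orbitRel (Subgroup.zpowers (x : G)) (G ⧸ (T : Subgroup G))) q.1))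
        rw [← hd]
        exact Subgroup.zpow_mem _ (MulAction.mem_stabilizer_iff.mpr (hfix q.1 q.2)) k
      refine ⟨Quotient.mk _ q.1, ?_, Subtype.ext hout⟩
      simp only [Finset.mem_filter, Finset.mem_univ, true_and, P, hout]; exact q.2
  -- the cosets fixed by the Sylow subgroup
  have hinv : ∀ d : (T : Subgroup G), ∀ q ∈ bad, (d : G) • q ∈ bad := by
    rintro d q ⟨g, rfl, h, hv⟩
    have e : (d * g : G)⁻¹ * x * (d * g) = g⁻¹ * x * g := by
      calc (d * g : G)⁻¹ * x * (d * g) = g⁻¹ * (d : G)⁻¹ * (x * d) * g := by group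
        _ = g⁻¹ * x * g := by rw [← hxc d d.2]; group
    refine ⟨d * g, rfl, e ▸ h, ?_⟩
    rw [← hv]
    exact congrArg f (Subtype.ext e)
  let S : SubMulAction (T : Subgroup G) (G ⧸ (T : Subgroup G)) := ⟨bad, fun d q hq => hinv d q hq⟩
  haveI : Fact (Nat.Prime 2) := ⟨Nat.prime_two⟩
  have hmod := T.isPGroup'.card_modEq_card_fixedPoints (p := 2) S
  have hmod' := T.isPGroup'.card_modEq_card_fixedPoints (p := 2) (G ⧸ (T : Subgroup G))
  have heq : Nat.card (fixedPoints (T : Subgroup G) S) = Nat.card (fixedPoints (T : Subgroup G) (G ⧸ (T : Subgroup G))) := by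
    refine Nat.card_congr
      { toFun := fun q => ⟨q.1.1, fun d => congrArg Subtype.val (q.2 d)⟩
        invFun := fun q => ⟨⟨q.1, ?_⟩, fun d => Subtype.ext (q.2 d)⟩
        left_inv := fun q => rfl
        right_inv := fun q => rfl }
    obtain ⟨q, hq⟩ := q
    induction q using QuotientGroup.induction_on with
    | H g =>
      change (g : G ⧸ (T : Subgroup G)) ∈ bad
      have hconj : ∀ d ∈ (T : Subgroup G), g⁻¹ * d * g ∈ (T : Subgroup G) := by
        intro d hd
        have := hq ⟨d, hd⟩
        change ((d * g : G) : G ⧸ (T : Subgroup G)) = g at this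
        rw [QuotientGroup.eq, mul_inv_rev, ← inv_mem_iff] at this
        simpa [mul_assoc] using this
      have hg : g⁻¹ ∈ Subgroup.normalizer ((T : Subgroup G) : Set G) :=
        Subgroup.mem_normalizer_fintype (fun d hd => by rw [inv_inv]; exact hconj d hd)
      exact (memBad g).mpr ⟨hconj _ x.2, hval g (inv_mem_iff.mp hg) _⟩
  have h1 : Nat.card S = Nat.card bad := rfl
  rw [heq] at hmod
  have hidx : Nat.card (G ⧸ (T : Subgroup G)) % 2 = 1 := by
    rw [← Subgroup.index_eq_card]
    exact Nat.two_dvd_ne_zero.mp T.not_dvd_index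
  rw [Nat.even_iff, ← hbadcard, ← h1] at hev
  rw [Nat.ModEq] at hmod hmod'
  omega

end CfsgLib.CentralMinusOne
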